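import Cfsg.Agent.Lib.Helper41.SnB.Defs
import Cfsg.Agent.Lib.Helper85.BB.S2984Core
import Cfsg.Agent.Lib.Helper47.Subn
import Cfsg.Agent.Lib.Helper47.Large
import Cfsg.Agent.Lib.Helper84.PCoreBasic

/-!
# S2986, package [C3]: two subnormal Baumann blocks of type `C₃` (`p = 2`) are equal or commute
-/

set_option autoImplicit false

namespace Cfsg.Agent.Lib.Helper77.SnB

open Cfsg
open Cfsg.Agent.Lib.Helper41.SnB

universe u

variable {G : Type u} [Group G]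

theorem eq_one_of_pow_two_three {t : G} {m k : ℕ} (h2 : t ^ (2 ^ m) = 1) (h3 : t ^ (3 ^ k) = 1) :
    t = 1 := by
  have d2 := orderOf_dvd_of_pow_eq_one h2
  have d3 := orderOf_dvd_of_pow_eq_one h3
  have hc : Nat.Coprime (2 ^ m) (3 ^ k) := Nat.Coprime.pow _ _ (by norm_num)
  exact orderOf_eq_one_iff.mp (Nat.eq_one_of_dvd_coprimes hc d2 d3)

/-- In a group of order 4, an involution `a` and two elements outside `{1, a}`. -/
theorem klein_cases {H : Type*} [Group H] (hc : Nat.card H = 4) (a s t : H) (ha : a ≠ 1)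
    (ha2 : a ^ 2 = 1) (hs1 : s ≠ 1) (hsa : s ≠ a) (ht1 : t ≠ 1) (hta : t ≠ a) :
    t = s ∨ t = s * a := by
  have hmem : ∀ z : H, z ∈ Subgroup.zpowers a ↔ z = 1 ∨ z = a := by
    intro z
    constructor
    · intro hz
      obtain ⟨k, rfl⟩ := Subgroup.mem_zpowers_iff.mp hz
      rcases Int.even_or_odd' k with ⟨j, rfl | rfl⟩
      · left
        rw [zpow_mul, zpow_ofNat, ha2, one_zpow]
      · right
        rw [zpow_add, zpow_mul, zpow_ofNat, ha2, one_zpow, one_mul, zpow_one]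
    · rintro (rfl | rfl)
      · exact one_mem _
      · exact Subgroup.mem_zpowers _
  have hA : Nat.card (Subgroup.zpowers a) = 2 := by
    rw [Nat.card_zpowers]; exact orderOf_eq_prime ha2 ha
  have hidx : (Subgroup.zpowers a).index = 2 := by
    have := Subgroup.card_mul_index (Subgroup.zpowers a)
    rw [hA, hc] at this; omega
  have hs : s⁻¹ ∉ Subgroup.zpowers a := by
    rw [Subgroup.inv_mem_iff, hmem]; push Not; exact ⟨hs1, hsa⟩
  have ht : t ∉ Subgroup.zpowers a := by rw [hmem]; push Not; exact ⟨ht1, hta⟩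
  have h := (Subgroup.mul_mem_iff_of_index_two hidx (a := s⁻¹) (b := t)).mpr (iff_of_false hs ht)
  rcases (hmem _).mp h with h | h
  · left; exact (inv_mul_eq_one.mp h).symm
  · right; rw [← h]; group

/-- A `3`-element normalizing a group `Q` of order 4 and exponent 2 and fixing a non-identity
element of `Q` centralizes `Q`. -/
theorem centralize_four (Q : Subgroup G) (hQ : Nat.card Q = 4) (hexp : ∀ u ∈ Q, u ^ 2 = 1)
    (g : G) (k : ℕ) (hg : g ^ (3 ^ k) = 1) (hgQ : ∀ u ∈ Q, g * u * g⁻¹ ∈ Q)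
    (a : G) (ha : a ∈ Q) (ha1 : a ≠ 1) (hga : g * a = a * g) : ∀ b ∈ Q, g * b = b * g := by
  intro b hb
  by_cases hb1 : b = 1
  · rw [hb1]; simp
  by_cases hba : b = a
  · rw [hba]; exact hga
  have hc : g * b * g⁻¹ ∈ Q := hgQ b hb
  have hc1 : g * b * g⁻¹ ≠ 1 := by
    intro h; exact hb1 (conj_eq_one_iff.mp h)
  have hca : g * b * g⁻¹ ≠ a := by
    intro h; apply hba
    have e1 : b = g⁻¹ * (g * b * g⁻¹) * g := by group
    have e2 : g⁻¹ * a * g = g⁻¹ * (a * g) := by group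
    rw [e1, h, e2, ← hga]; group
  have h := klein_cases (H := ↥Q) hQ ⟨a, ha⟩ ⟨b, hb⟩ ⟨g * b * g⁻¹, hc⟩
    (by simpa [Subtype.ext_iff] using ha1) (by ext; simpa using hexp a ha)
    (by simpa [Subtype.ext_iff] using hb1) (by simpa [Subtype.ext_iff] using hba)
    (by simpa [Subtype.ext_iff] using hc1) (by simpa [Subtype.ext_iff] using hca)
  rcases h with h | h
  · have h' : g * b * g⁻¹ = b := congrArg Subtype.val h
    calc g * b = (g * b * g⁻¹) * g := by group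
      _ = b * g := by rw [h']
  · exfalso
    have h' : g * b * g⁻¹ = b * a := congrArg Subtype.val h
    have hpow : ∀ n : ℕ, g ^ n * b * (g ^ n)⁻¹ = b * a ^ n := by
      intro n
      induction n with
      | zero => simp
      | succ n ih =>
        have hgan : g * a ^ n * g⁻¹ = a ^ n := by
          have hcm : Commute g (a ^ n) := (show Commute g a from hga).pow_right n
          rw [hcm.eq]; group
        calc g ^ (n + 1) * b * (g ^ (n + 1))⁻¹ = g * (g ^ n * b * (g ^ n)⁻¹) * g⁻¹ := by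
              rw [pow_succ']; group
          _ = g * (b * a ^ n) * g⁻¹ := by rw [ih]
          _ = (g * b * g⁻¹) * (g * a ^ n * g⁻¹) := by group
          _ = b * a * a ^ n := by rw [h', hgan]
          _ = b * a ^ (n + 1) := by rw [pow_succ', mul_assoc]
    have h3 := hpow (3 ^ k)
    rw [hg] at h3
    have ha3 : a ^ (3 ^ k) = 1 := by
      have e : b * 1 = b * a ^ (3 ^ k) := by simpa using h3
      exact (mul_left_cancel e).symm
    have ha2 : a ^ (2 ^ 1) = 1 := by simpa using hexp a ha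
    exact ha1 (eq_one_of_pow_two_three ha2 ha3)

/-- Coprime stability: a `3`-element centralizing `U ≤ P` and `P / U`, `P` a `2`-group with
`C(P) ≤ P`, is trivial. -/
theorem st_lemma (P U : Subgroup G) (hP2 : ∀ c ∈ P, ∃ m : ℕ, c ^ (2 ^ m) = 1)
    (hCP : ∀ g : G, (∀ v ∈ P, g * v = v * g) → g ∈ P) (hUP : U ≤ P)
    (g : G) (k : ℕ) (hg : g ^ (3 ^ k) = 1) (hgU : ∀ u ∈ U, g * u = u * g)
    (hPg : ∀ v ∈ P, g * v * g⁻¹ * v⁻¹ ∈ U) : g = 1 := by
  have key : ∀ v ∈ P, g * v = v * g := by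
    intro v hv
    obtain ⟨t, ht⟩ : ∃ t, t = g * v * g⁻¹ * v⁻¹ := ⟨_, rfl⟩
    have htU : t ∈ U := ht ▸ hPg v hv
    have hgt : Commute g t := hgU t htU
    have hgv : g * v * g⁻¹ = t * v := by rw [ht]; group
    have hpow : ∀ n : ℕ, g ^ n * v * (g ^ n)⁻¹ = t ^ n * v := by
      intro n
      induction n with
      | zero => simp
      | succ n ih =>
        have h1 : g * t ^ n * g⁻¹ = t ^ n := by
          rw [(hgt.pow_right n).eq]; group
        calc g ^ (n + 1) * v * (g ^ (n + 1))⁻¹ = g * (g ^ n * v * (g ^ n)⁻¹) * g⁻¹ := by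
              rw [pow_succ']; group
          _ = g * (t ^ n * v) * g⁻¹ := by rw [ih]
          _ = (g * t ^ n * g⁻¹) * (g * v * g⁻¹) := by group
          _ = t ^ n * (t * v) := by rw [h1, hgv]
          _ = t ^ (n + 1) * v := by rw [pow_succ, mul_assoc]
    have h3 := hpow (3 ^ k)
    rw [hg] at h3
    have ht3 : t ^ (3 ^ k) = 1 := by
      have e : 1 * v = t ^ (3 ^ k) * v := by simpa using h3
      exact (mul_right_cancel e).symm
    obtain ⟨m, hm⟩ := hP2 t (hUP htU)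
    have ht1 : t = 1 := eq_one_of_pow_two_three hm ht3
    rw [ht1, one_mul] at hgv
    calc g * v = (g * v * g⁻¹) * g := by group
      _ = v * g := by rw [hgv]
  obtain ⟨m, hm⟩ := hP2 g (hCP g key)
  exact eq_one_of_pow_two_three hm hg

theorem triv_mul (U P : Subgroup G) (h h' : G) (hU : ∀ u ∈ U, h * u * h⁻¹ ∈ U)
    (h1 : ∀ v ∈ P, h * v * h⁻¹ * v⁻¹ ∈ U) (h2 : ∀ v ∈ P, h' * v * h'⁻¹ * v⁻¹ ∈ U) :
    ∀ v ∈ P, (h * h') * v * (h * h')⁻¹ * v⁻¹ ∈ U := by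
  intro v hv
  have e : (h * h') * v * (h * h')⁻¹ * v⁻¹ =
      (h * (h' * v * h'⁻¹ * v⁻¹) * h⁻¹) * (h * v * h⁻¹ * v⁻¹) := by group
  rw [e]
  exact U.mul_mem (hU _ (h2 v hv)) (h1 v hv)

theorem triv_inv (U P : Subgroup G) (h : G) (hU : ∀ u ∈ U, h⁻¹ * u * h ∈ U)
    (h1 : ∀ v ∈ P, h * v * h⁻¹ * v⁻¹ ∈ U) :
    ∀ v ∈ P, h⁻¹ * v * h⁻¹⁻¹ * v⁻¹ ∈ U := by
  intro v hv
  have e : h⁻¹ * v * h⁻¹⁻¹ * v⁻¹ = h⁻¹ * (h * v * h⁻¹ * v⁻¹)⁻¹ * h := by group
  rw [e]
  exact hU _ (U.inv_mem (h1 v hv))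

/-- The abstract facts on a block `X` of type `C₃` with `Q = O_2(X)`. -/
structure C3Facts (P V X Q : Subgroup G) : Prop where
  QX : Q ≤ X
  QV : Q ≤ V
  card : Nat.card Q = 4
  nrm : ∀ e ∈ X, ∀ u ∈ Q, e * u * e⁻¹ ∈ Q
  comm : ∀ e ∈ X, ∀ u ∈ P, e * u * e⁻¹ * u⁻¹ ∈ Q
  cube : ∀ e ∈ X, e ^ 3 ∈ Q
  gen : ∀ x ∈ X, x ∉ Q → ∀ e ∈ X, ∃ k : ℤ, ∃ q ∈ Q, e = x ^ k * q
  faith : ∀ e ∈ X, (∀ u ∈ Q, e * u = u * e) → e ∈ Q

theorem C3Facts.nrm' {P V X Q : Subgroup G} (hX : C3Facts P V X Q) :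
    ∀ e ∈ X, ∀ u ∈ Q, e⁻¹ * u * e ∈ Q := by
  intro e he u hu
  have := hX.nrm e⁻¹ (X.inv_mem he) u hu
  simpa using this

theorem C3Facts.fpf {P V X Q : Subgroup G} (hX : C3Facts P V X Q) (hVexp : ∀ v ∈ V, v ^ 2 = 1)
    {x : G} (hx : x ∈ X) (hxQ : x ∉ Q) {k : ℕ} (hk : x ^ (3 ^ k) = 1) :
    ∀ u ∈ Q, x * u = u * x → u = 1 := by
  intro u hu hxu
  by_contra hu1
  exact hxQ (hX.faith x hx (centralize_four Q hX.card (fun u hu => hVexp u (hX.QV hu)) x k hk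
    (hX.nrm x hx) u hu hu1 hxu))

theorem C3Facts.cube_eq_one {P V X Q : Subgroup G} (hX : C3Facts P V X Q)
    (hVexp : ∀ v ∈ V, v ^ 2 = 1) {x : G} (hx : x ∈ X) {k : ℕ} (hk : x ^ (3 ^ k) = 1) :
    x ^ 3 = 1 := by
  have h2 : (x ^ 3) ^ (2 ^ 1) = 1 := by simpa using hVexp _ (hX.QV (hX.cube x hx))
  have h3 : (x ^ 3) ^ (3 ^ k) = 1 := by rw [← pow_mul, mul_comm, pow_mul, hk, one_pow]
  exact eq_one_of_pow_two_three h2 h3

theorem C3Facts.cqPair {P V X Q : Subgroup G} (hX : C3Facts P V X Q) (hVP : V ≤ P)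
    (hVc : ∀ v ∈ V, ∀ c ∈ P, v * c = c * v) (hVexp : ∀ v ∈ V, v ^ 2 = 1)
    {x : G} (hx : x ∈ X) (hxQ : x ∉ Q) {k : ℕ} (hk : x ^ (3 ^ k) = 1) :
    CQPair V 4 (Subgroup.zpowers x) Q x := by
  have hfpf := hX.fpf hVexp hx hxQ hk
  have hx3 := hX.cube_eq_one hVexp hx hk
  have hzX : Subgroup.zpowers x ≤ X := (Subgroup.zpowers_le).mpr hx
  refine ⟨hX.QV, hX.card, ?_, ?_, Subgroup.mem_zpowers x, ?_, hfpf, ?_⟩
  · intro v hv q hq
    have e : v * q = q * v := hVc v hv q (hVP (hX.QV hq))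
    rw [e]; simpa using hq
  · intro u hu kk hkk
    exact hX.comm kk (hzX hkk) u (hVP hu)
  · intro kk hkk
    obtain ⟨i, rfl⟩ := Subgroup.mem_zpowers_iff.mp hkk
    exact ((Commute.refl x).zpow_right i).eq
  · intro K₀ _ htwo
    have hxK : x ∈ K₀ := by
      by_contra hxn
      have hxn' : x⁻¹ ∉ K₀ := fun h => hxn (by simpa using K₀.inv_mem h)
      have h := htwo x (Subgroup.mem_zpowers x) x⁻¹ (Subgroup.inv_mem _ (Subgroup.mem_zpowers x))
        hxn hxn'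
      have e : x⁻¹ * x⁻¹ = x := by
        have e3 : x * x * x = 1 := by rw [← hx3, pow_succ, pow_succ, pow_one]
        calc x⁻¹ * x⁻¹ = x⁻¹ * x⁻¹ * (x * x * x) := by rw [e3, mul_one]
          _ = x := by group
      rw [e] at h; exact hxn h
    refine ⟨hxK, ?_⟩
    intro D hD hND
    have hdvd : Nat.card D ∣ 4 := hX.card ▸ Subgroup.card_dvd_of_le hD
    have hfin : Finite ↥Q := Nat.finite_of_card_ne_zero (by rw [hX.card]; norm_num)
    have hle4 : Nat.card D ≤ 4 := Nat.le_of_dvd (by norm_num) hdvd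
    have hpos : 0 < Nat.card D := Nat.pos_of_dvd_of_pos hdvd (by norm_num)
    have hcases : Nat.card D = 1 ∨ Nat.card D = 2 ∨ Nat.card D = 4 := by
      generalize Nat.card D = n at hdvd hle4 hpos
      interval_cases n <;> simp_all
    rcases hcases with h1 | h2 | h4
    · left; exact Subgroup.eq_bot_of_card_eq D h1
    · exfalso
      obtain ⟨d, hd, huniq⟩ := (Nat.card_eq_two_iff' (1 : ↥D)).mp h2
      have hxd : x * (d : G) * x⁻¹ ∈ D := hND x hxK d d.2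
      have hne : (⟨x * (d : G) * x⁻¹, hxd⟩ : ↥D) ≠ 1 := by
        intro h
        have h' : x * (d : G) * x⁻¹ = 1 := congrArg Subtype.val h
        exact hd (Subtype.ext (conj_eq_one_iff.mp h'))
      have heq := huniq _ hne
      have h' : x * (d : G) * x⁻¹ = d := congrArg Subtype.val heq
      have hcomm : x * (d : G) = d * x := by
        calc x * (d : G) = (x * d * x⁻¹) * x := by group
          _ = d * x := by rw [h']
      exact hd (Subtype.ext (hfpf d (hD d.2) hcomm))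
    · right
      exact Subgroup.eq_of_le_of_card_ge hD (by rw [h4, hX.card])

/-- A `3`-element of `X` outside `Q` in any given Sylow `3`-subgroup. -/
theorem exists_three_elt [Finite G] (P : Subgroup G) [P.Normal]
    (X Q : Subgroup G) (hsub : X.IsSubnormal) (hQP : Q ≤ P) (hEP : X ⊓ P ≤ Q)
    (hcube : ∀ e ∈ X, e ^ 3 ∈ Q) (hres : pResidualOf 2 (X ⊔ P) = X)
    (hex : ∃ x₁ ∈ X, x₁ ∉ Q) (S : Sylow 3 G) :
    ∃ x ∈ X, x ∈ (S : Subgroup G) ∧ x ∉ Q := by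
  obtain ⟨x₁, hx₁, hx₁Q⟩ := hex
  have hπ : Function.Surjective (QuotientGroup.mk' P) := QuotientGroup.mk'_surjective P
  have hsn : (X.map (QuotientGroup.mk' P)).IsSubnormal := hsub.map hπ
  have hp3 : IsPGroup 3 ↥(X.map (QuotientGroup.mk' P)) := by
    rintro ⟨_, e, he, rfl⟩
    refine ⟨1, ?_⟩
    apply Subtype.ext
    simp only [pow_one, Subgroup.coe_pow, Subgroup.coe_one]
    rw [← map_pow]
    exact (QuotientGroup.eq_one_iff _).mpr (hQP (hcube e he))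
  have h1 : X.map (QuotientGroup.mk' P) ≤ pCore 3 (G ⧸ P) :=
    Cfsg.Agent.Lib.Helper47.le_pCore_of_isSubnormal_of_isPGroup hsn hp3
  have h2 : pCore 3 (G ⧸ P) ≤ ((S.mapSurjective hπ : Sylow 3 (G ⧸ P)) : Subgroup (G ⧸ P)) :=
    Cfsg.Agent.Lib.Helper84.pCore_le_sylow 3 _
  have h3 : (QuotientGroup.mk' P) x₁ ∈ (S : Subgroup G).map (QuotientGroup.mk' P) := by
    have := h2 (h1 (Subgroup.mem_map_of_mem _ hx₁))
    rwa [Sylow.coe_mapSurjective] at this
  obtain ⟨s, hsS, hs⟩ := h3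
  have hc : s⁻¹ * x₁ ∈ P := by
    have e : ((s : G) : G ⧸ P) = ((x₁ : G) : G ⧸ P) := hs
    exact QuotientGroup.eq.mp e
  have hsXP : s ∈ X ⊔ P := by
    have e : s = x₁ * (s⁻¹ * x₁)⁻¹ := by group
    rw [e]; exact Subgroup.mul_mem_sup hx₁ (P.inv_mem hc)
  obtain ⟨k, hk⟩ := S.isPGroup' ⟨s, hsS⟩
  have hsk : s ^ (3 ^ k) = 1 := by simpa [Subtype.ext_iff] using hk
  have hcop : (orderOf s).Coprime 2 :=
    Nat.Coprime.coprime_dvd_left (orderOf_dvd_of_pow_eq_one hsk)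
      (Nat.Coprime.pow_left k (by norm_num))
  have hsX : s ∈ X := by
    have hmem : s ∈ pResidualOf 2 (X ⊔ P) := by
      unfold pResidualOf pResidual
      refine ⟨⟨s, hsXP⟩, Subgroup.subset_closure ?_, rfl⟩
      show (orderOf (⟨s, hsXP⟩ : ↥(X ⊔ P))).Coprime 2
      rw [← Subgroup.orderOf_coe]; exact hcop
    exact hres.le hmem
  refine ⟨s, hsX, hsS, ?_⟩
  intro hsQ
  apply hx₁Q
  apply hEP
  refine ⟨hx₁, ?_⟩
  have e : x₁ = s * (s⁻¹ * x₁) := by group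
  rw [e]; exact P.mul_mem (hQP hsQ) hc

/-- The abstract core of [C3]. -/
theorem c3_core [Finite G] (hCQ : PkgCQ.{u}) (P V : Subgroup G) (hPn : P.Normal)
    (hP2 : ∀ c ∈ P, ∃ m : ℕ, c ^ (2 ^ m) = 1)
    (hCP : ∀ g : G, (∀ v ∈ P, g * v = v * g) → g ∈ P)
    (hVP : V ≤ P) (hVc : ∀ v ∈ V, ∀ c ∈ P, v * c = c * v) (hVexp : ∀ v ∈ V, v ^ 2 = 1)
    (hVn : ∀ g : G, ∀ v ∈ V, g * v * g⁻¹ ∈ V)
    (S : Sylow 3 G) (E F QE QF : Subgroup G) (hE : C3Facts P V E QE) (hF : C3Facts P V F QF)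
    (x y : G) (hxE : x ∈ E) (hxS : x ∈ (S : Subgroup G)) (hxQ : x ∉ QE)
    (hyF : y ∈ F) (hyS : y ∈ (S : Subgroup G)) (hyQ : y ∉ QF) :
    E = F ∨ ⁅E, F⁆ = ⊥ := by
  have h3 : ∀ g ∈ (S : Subgroup G), ∃ k : ℕ, g ^ (3 ^ k) = 1 := by
    intro g hg
    obtain ⟨k, hk⟩ := S.isPGroup' ⟨g, hg⟩
    exact ⟨k, by simpa [Subtype.ext_iff] using hk⟩
  obtain ⟨kx, hkx⟩ := h3 x hxS
  obtain ⟨ky, hky⟩ := h3 y hyS
  have hx3 : x ^ 3 = 1 := hE.cube_eq_one hVexp hxE hkx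
  have hy3 : y ^ 3 = 1 := hF.cube_eq_one hVexp hyF hky
  have hfx := hE.fpf hVexp hxE hxQ hkx
  have hfy := hF.fpf hVexp hyF hyQ hky
  have hcq := hCQ (S : Subgroup G) V 3 S.isPGroup' (fun s _ v hv => hVn s v hv) 4 (by norm_num)
    (Subgroup.zpowers x) QE x (Subgroup.zpowers y) QF y ((Subgroup.zpowers_le).mpr hxS)
    ((Subgroup.zpowers_le).mpr hyS) (hE.cqPair hVP hVc hVexp hxE hxQ hkx)
    (hF.cqPair hVP hVc hVexp hyF hyQ hky)
  rcases hcq with hQ | ⟨hc1, hc2⟩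
  · -- the case `Q_E = Q_F`
    left
    subst hQ
    have hexp : ∀ u ∈ QE, u ^ 2 = 1 := fun u hu => hVexp u (hE.QV hu)
    obtain ⟨a, ha, ha1⟩ : ∃ a ∈ QE, a ≠ 1 := by
      by_contra hne
      push Not at hne
      have hbot : QE = ⊥ := (Subgroup.eq_bot_iff_forall _).mpr hne
      have h4 := hE.card
      rw [hbot, Subgroup.card_bot] at h4
      norm_num at h4
    -- the conjugates of `a`
    have hb : x * a * x⁻¹ ∈ QE := hE.nrm x hxE a ha
    have hb' : x⁻¹ * a * x ∈ QE := hE.nrm' x hxE a ha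
    have hc : y * a * y⁻¹ ∈ QE := hF.nrm y hyF a ha
    have hb1 : x * a * x⁻¹ ≠ 1 := fun h => ha1 (conj_eq_one_iff.mp h)
    have hc1' : y * a * y⁻¹ ≠ 1 := fun h => ha1 (conj_eq_one_iff.mp h)
    have hb'1 : x⁻¹ * a * x ≠ 1 := by
      intro h
      apply ha1
      have e : a = x * (x⁻¹ * a * x) * x⁻¹ := by group
      rw [e, h]; group
    have hba : x * a * x⁻¹ ≠ a := by
      intro h
      apply ha1
      apply hfx a ha
      calc x * a = (x * a * x⁻¹) * x := by group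
        _ = a * x := by rw [h]
    have hca : y * a * y⁻¹ ≠ a := by
      intro h
      apply ha1
      apply hfy a ha
      calc y * a = (y * a * y⁻¹) * y := by group
        _ = a * y := by rw [h]
    have hb'a : x⁻¹ * a * x ≠ a := by
      intro h
      apply ha1
      apply hfx a ha
      calc x * a = x * (x⁻¹ * a * x) := by rw [h]
        _ = a * x := by group
    have hcase1 := klein_cases (H := ↥QE) hE.card ⟨a, ha⟩ ⟨x * a * x⁻¹, hb⟩ ⟨y * a * y⁻¹, hc⟩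
      (by simpa [Subtype.ext_iff] using ha1) (by ext; simpa using hexp a ha)
      (by simpa [Subtype.ext_iff] using hb1) (by simpa [Subtype.ext_iff] using hba)
      (by simpa [Subtype.ext_iff] using hc1') (by simpa [Subtype.ext_iff] using hca)
    have hcase2 := klein_cases (H := ↥QE) hE.card ⟨a, ha⟩ ⟨x * a * x⁻¹, hb⟩ ⟨x⁻¹ * a * x, hb'⟩
      (by simpa [Subtype.ext_iff] using ha1) (by ext; simpa using hexp a ha)
      (by simpa [Subtype.ext_iff] using hb1) (by simpa [Subtype.ext_iff] using hba)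
      (by simpa [Subtype.ext_iff] using hb'1) (by simpa [Subtype.ext_iff] using hb'a)
    have hb'eq : x⁻¹ * a * x = x * a * x⁻¹ * a := by
      rcases hcase2 with h | h
      · exfalso
        have h' : x⁻¹ * a * x = x * a * x⁻¹ := congrArg Subtype.val h
        have hc2' : Commute (x ^ 2) a := by
          show x ^ 2 * a = a * x ^ 2
          calc x ^ 2 * a = x * (x * a * x⁻¹) * x := by rw [pow_two]; group
            _ = x * (x⁻¹ * a * x) * x := by rw [h']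
            _ = a * x ^ 2 := by rw [pow_two]; group
        have hc4 : Commute ((x ^ 2) ^ 2) a := hc2'.pow_left 2
        have e4 : (x ^ 2) ^ 2 = x := by
          rw [← pow_mul, show 2 * 2 = 3 + 1 from rfl, pow_succ, hx3, one_mul]
        rw [e4] at hc4
        exact ha1 (hfx a ha hc4.eq)
      · exact congrArg Subtype.val h
    -- the common end: a `3`-element of `S` built from `x`, `y` fixing `a` is trivial
    have hend : ∀ g ∈ (S : Subgroup G), (∀ u ∈ QE, g * u * g⁻¹ ∈ QE) → g * a = a * g →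
        (∀ v ∈ P, g * v * g⁻¹ * v⁻¹ ∈ QE) → g = 1 := by
      intro g hgS hgQ hga hgP
      obtain ⟨k, hk⟩ := h3 g hgS
      exact st_lemma P QE hP2 hCP (hE.QV.trans hVP) g k hk
        (centralize_four QE hE.card hexp g k hk hgQ a ha ha1 hga) hgP
    have hyx : y = x ∨ y = x⁻¹ := by
      rcases hcase1 with h | h
      · left
        have h' : y * a * y⁻¹ = x * a * x⁻¹ := congrArg Subtype.val h
        have hg1 : x⁻¹ * y = 1 := by
          apply hend (x⁻¹ * y) (Subgroup.mul_mem _ (Subgroup.inv_mem _ hxS) hyS)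
          · intro u hu
            have e : x⁻¹ * y * u * (x⁻¹ * y)⁻¹ = x⁻¹ * (y * u * y⁻¹) * x := by group
            rw [e]; exact hE.nrm' x hxE _ (hF.nrm y hyF u hu)
          · calc x⁻¹ * y * a = x⁻¹ * (y * a * y⁻¹) * y := by group
              _ = x⁻¹ * (x * a * x⁻¹) * y := by rw [h']
              _ = a * (x⁻¹ * y) := by group
          · have hxi : ∀ v ∈ P, x⁻¹ * v * x⁻¹⁻¹ * v⁻¹ ∈ QE :=
              triv_inv QE P x (hE.nrm' x hxE) (hE.comm x hxE)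
            exact triv_mul QE P x⁻¹ y (fun u hu => by simpa using hE.nrm' x hxE u hu) hxi
              (hF.comm y hyF)
        calc y = x * (x⁻¹ * y) := by group
          _ = x := by rw [hg1, mul_one]
      · right
        have h' : y * a * y⁻¹ = x * a * x⁻¹ * a := congrArg Subtype.val h
        have hg1 : x * y = 1 := by
          apply hend (x * y) (Subgroup.mul_mem _ hxS hyS)
          · intro u hu
            have e : x * y * u * (x * y)⁻¹ = x * (y * u * y⁻¹) * x⁻¹ := by group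
            rw [e]; exact hE.nrm x hxE _ (hF.nrm y hyF u hu)
          · calc x * y * a = x * (y * a * y⁻¹) * y := by group
              _ = x * (x⁻¹ * a * x) * y := by rw [h', hb'eq]
              _ = a * (x * y) := by group
          · exact triv_mul QE P x y (hE.nrm x hxE) (hE.comm x hxE) (hF.comm y hyF)
        exact eq_inv_of_mul_eq_one_right hg1
    have hyE : y ∈ E := by
      rcases hyx with h | h
      · rw [h]; exact hxE
      · rw [h]; exact E.inv_mem hxE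
    have hxF : x ∈ F := by
      rcases hyx with h | h
      · rw [← h]; exact hyF
      · have e : x = y⁻¹ := by rw [h, inv_inv]
        rw [e]; exact F.inv_mem hyF
    apply le_antisymm
    · intro e he
      obtain ⟨i, q, hq, rfl⟩ := hE.gen x hxE hxQ e he
      exact F.mul_mem (F.zpow_mem hxF i) (hF.QX hq)
    · intro f hf
      obtain ⟨i, q, hq, rfl⟩ := hF.gen y hyF hyQ f hf
      exact E.mul_mem (E.zpow_mem hyE i) (hE.QX hq)
  · -- the orthogonal case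
    right
    have hconj : ∀ v ∈ P, x * y * v * y⁻¹ * x⁻¹ = y * x * v * x⁻¹ * y⁻¹ := by
      intro v hv
      have hβ : y * v * y⁻¹ * v⁻¹ ∈ QF := hF.comm y hyF v hv
      have hα : x * v * x⁻¹ * v⁻¹ ∈ QE := hE.comm x hxE v hv
      have c1 : x * (y * v * y⁻¹ * v⁻¹) = (y * v * y⁻¹ * v⁻¹) * x :=
        hc2 x (Subgroup.mem_zpowers x) _ hβ
      have c2 : y * (x * v * x⁻¹ * v⁻¹) = (x * v * x⁻¹ * v⁻¹) * y :=
        hc1 y (Subgroup.mem_zpowers y) _ hα
      have c3 : (x * v * x⁻¹ * v⁻¹) * (y * v * y⁻¹ * v⁻¹) =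
          (y * v * y⁻¹ * v⁻¹) * (x * v * x⁻¹ * v⁻¹) :=
        hVc _ (hE.QV hα) _ (hVP (hF.QV hβ))
      calc x * y * v * y⁻¹ * x⁻¹
          = (x * (y * v * y⁻¹ * v⁻¹)) * x⁻¹ * (x * v * x⁻¹ * v⁻¹) * v := by group
        _ = (y * v * y⁻¹ * v⁻¹) * x * x⁻¹ * (x * v * x⁻¹ * v⁻¹) * v := by rw [c1]
        _ = (y * v * y⁻¹ * v⁻¹) * (x * v * x⁻¹ * v⁻¹) * v := by group
        _ = (x * v * x⁻¹ * v⁻¹) * (y * v * y⁻¹ * v⁻¹) * v := by rw [c3]
        _ = (x * v * x⁻¹ * v⁻¹) * y * y⁻¹ * (y * v * y⁻¹ * v⁻¹) * v := by group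
        _ = y * (x * v * x⁻¹ * v⁻¹) * y⁻¹ * (y * v * y⁻¹ * v⁻¹) * v := by rw [← c2]
        _ = y * x * v * x⁻¹ * y⁻¹ := by group
    have hg : ∀ v ∈ P, (x * y * x⁻¹ * y⁻¹) * v = v * (x * y * x⁻¹ * y⁻¹) := by
      intro v hv
      have hw : x⁻¹ * y⁻¹ * v * y * x ∈ P := by
        have h := hPn.conj_mem v hv (x⁻¹ * y⁻¹)
        have e : x⁻¹ * y⁻¹ * v * (x⁻¹ * y⁻¹)⁻¹ = x⁻¹ * y⁻¹ * v * y * x := by group
        rwa [e] at h
      have h := hconj _ hw
      have e1 : y * x * (x⁻¹ * y⁻¹ * v * y * x) * x⁻¹ * y⁻¹ = v := by group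
      rw [e1] at h
      calc (x * y * x⁻¹ * y⁻¹) * v
          = (x * y * (x⁻¹ * y⁻¹ * v * y * x) * y⁻¹ * x⁻¹) * (x * y * x⁻¹ * y⁻¹) := by group
        _ = v * (x * y * x⁻¹ * y⁻¹) := by rw [h]
    have hgP := hCP _ hg
    obtain ⟨m, hm⟩ := hP2 _ hgP
    have hgS : x * y * x⁻¹ * y⁻¹ ∈ (S : Subgroup G) :=
      Subgroup.mul_mem _ (Subgroup.mul_mem _ (Subgroup.mul_mem _ hxS hyS) (Subgroup.inv_mem _ hxS))
        (Subgroup.inv_mem _ hyS)
    obtain ⟨k, hk⟩ := h3 _ hgS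
    have hg1 := eq_one_of_pow_two_three hm hk
    have hxy : Commute x y := by
      show x * y = y * x
      calc x * y = (x * y * x⁻¹ * y⁻¹) * (y * x) := by group
        _ = y * x := by rw [hg1, one_mul]
    rw [Subgroup.commutator_eq_bot_iff_le_centralizer]
    intro e he
    rw [Subgroup.mem_centralizer_iff]
    intro f hf
    obtain ⟨i, q, hq, rfl⟩ := hE.gen x hxE hxQ e he
    obtain ⟨j, q', hq', rfl⟩ := hF.gen y hyF hyQ f hf
    have k1 : Commute (y ^ j) (x ^ i) := (hxy.zpow_zpow i j).symm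
    have k2 : Commute (y ^ j) q := hc1 _ (Subgroup.zpow_mem_zpowers y j) q hq
    have k3 : Commute q' (x ^ i) := (show Commute (x ^ i) q' from
      hc2 _ (Subgroup.zpow_mem_zpowers x i) q' hq').symm
    have k4 : Commute q' q := (show Commute q q' from
      hVc q (hE.QV hq) q' (hVP (hF.QV hq'))).symm
    exact ((k1.mul_right k2).mul_left (k3.mul_right k4)).eq

/-- The abstract facts from the block structure. -/
theorem c3Facts_of [Finite G] (X : Subgroup G) (hB : SBlk 2 X) (hT : C3Type 2 X) :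
    C3Facts (pCore 2 G) (Vb 2 G) X (Qb 2 X) ∧ ∃ x₁ ∈ X, x₁ ∉ Qb 2 X := by
  obtain ⟨-, hidx, hQW, hcard⟩ := hT
  have : Fact (Nat.Prime 2) := ⟨Nat.prime_two⟩
  have : Fact (Nat.Prime 3) := ⟨Nat.prime_three⟩
  have hnormal : (pCore 2 ↥X).Normal := Subgroup.sSup_normal _ (fun _ h => h.1)
  have hQX : Qb 2 X ≤ X := Cfsg.Agent.Lib.Helper47.pCoreOf_le 2 X
  have hnorm : X ≤ Subgroup.normalizer ((Qb 2 X : Subgroup G) : Set G) :=
    Cfsg.Agent.Lib.Helper47.le_normalizer_pCoreOf 2 X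
  have hnrm : ∀ e ∈ X, ∀ u ∈ Qb 2 X, e * u * e⁻¹ ∈ Qb 2 X := fun e he u hu =>
    (Subgroup.mem_normalizer_iff.mp (hnorm he) u).mp hu
  have hPnormal : (pCore 2 G).Normal := Subgroup.sSup_normal _ (fun _ h => h.1)
  have hcomm : ∀ e ∈ X, ∀ u ∈ pCore 2 G, e * u * e⁻¹ * u⁻¹ ∈ Qb 2 X := by
    intro e he u hu
    apply hB.EP
    refine ⟨?_, ?_⟩
    · have hu' := hB.PN hu
      have h1 : u * e⁻¹ * u⁻¹ ∈ X := (Subgroup.mem_normalizer_iff.mp hu' e⁻¹).mp (X.inv_mem he)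
      have e' : e * u * e⁻¹ * u⁻¹ = e * (u * e⁻¹ * u⁻¹) := by group
      rw [e']; exact X.mul_mem he h1
    · have h1 : e * u * e⁻¹ ∈ pCore 2 G := hPnormal.conj_mem u hu e
      exact (pCore 2 G).mul_mem h1 ((pCore 2 G).inv_mem hu)
  have hmemQ : ∀ e : ↥X, e ∈ pCore 2 ↥X ↔ (e : G) ∈ Qb 2 X := by
    intro e
    constructor
    · intro h; exact ⟨e, h, rfl⟩
    · rintro ⟨e', he', h⟩
      have : e' = e := Subtype.ext h
      rwa [← this]
  have hcube : ∀ e ∈ X, e ^ 3 ∈ Qb 2 X := by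
    intro e he
    have h1 : (((⟨e, he⟩ : ↥X) : ↥X ⧸ pCore 2 ↥X)) ^ 3 = 1 := by
      rw [← hidx]; exact pow_card_eq_one'
    have h2 : (⟨e, he⟩ : ↥X) ^ 3 ∈ pCore 2 ↥X := by
      rw [← QuotientGroup.eq_one_iff, QuotientGroup.mk_pow]; exact h1
    have := (hmemQ _).mp h2
    simpa using this
  have hgen : ∀ x ∈ X, x ∉ Qb 2 X → ∀ e ∈ X, ∃ k : ℤ, ∃ q ∈ Qb 2 X, e = x ^ k * q := by
    intro x hx hxQ e he
    have hne : (((⟨x, hx⟩ : ↥X) : ↥X ⧸ pCore 2 ↥X)) ≠ 1 := by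
      intro h; exact hxQ ((hmemQ _).mp ((QuotientGroup.eq_one_iff _).mp h))
    have htop := zpowers_eq_top_of_prime_card hidx hne
    have hmem : (((⟨e, he⟩ : ↥X) : ↥X ⧸ pCore 2 ↥X)) ∈
        Subgroup.zpowers (((⟨x, hx⟩ : ↥X) : ↥X ⧸ pCore 2 ↥X)) := by rw [htop]; trivial
    obtain ⟨k, hk⟩ := Subgroup.mem_zpowers_iff.mp hmem
    have h2 : ((⟨x, hx⟩ : ↥X) ^ k)⁻¹ * ⟨e, he⟩ ∈ pCore 2 ↥X := by
      rw [← QuotientGroup.eq, QuotientGroup.mk_zpow]; exact hk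
    refine ⟨k, (x ^ k)⁻¹ * e, ?_, by group⟩
    have := (hmemQ _).mp h2
    simpa using this
  have hfaith : ∀ e ∈ X, (∀ u ∈ Qb 2 X, e * u = u * e) → e ∈ Qb 2 X := by
    intro e he hcen
    apply hB.faithW e he
    intro w hw
    have hw' : w ∈ Qb 2 X := by rw [hQW]; exact hw
    have e1 : e * w * e⁻¹ * w⁻¹ = 1 := by rw [hcen w hw']; group
    rw [e1]; exact one_mem _
  have hQV : Qb 2 X ≤ Vb 2 G :=
    calc Qb 2 X = ⁅Qb 2 X, X⁆ := hB.QE.symm
      _ = ⁅Wb 2 X, X⁆ := congrArg (fun Z => ⁅Z, X⁆) hQW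
      _ ≤ Vb 2 G := hB.AV
  refine ⟨⟨hQX, hQV, hcard, hnrm, hcomm, hcube, hgen, hfaith⟩, ?_⟩
  have hnt : Nontrivial (↥X ⧸ pCore 2 ↥X) := by
    apply (Finite.one_lt_card_iff_nontrivial).mp
    rw [hidx]; norm_num
  obtain ⟨z, hz⟩ := exists_ne (1 : ↥X ⧸ pCore 2 ↥X)
  obtain ⟨e, rfl⟩ := QuotientGroup.mk_surjective z
  exact ⟨e, e.2, fun h => hz ((QuotientGroup.eq_one_iff _).mpr ((hmemQ e).mpr h))⟩

/-- **[C3]**: two subnormal blocks of type `C₃` are equal or commute. -/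
theorem pkgC3_of : PkgCQ.{u} → PkgC3.{u} := by
  intro hCQ G _ _ p _ hG E F hE hF hEs hFs hE3 hF3
  have hp2 : p = 2 := hE3.1
  subst hp2
  have : Fact (Nat.Prime 3) := ⟨Nat.prime_three⟩
  have hPnormal : (pCore 2 G).Normal := Subgroup.sSup_normal _ (fun _ h => h.1)
  obtain ⟨hEf, hEex⟩ := c3Facts_of E hE hE3
  obtain ⟨hFf, hFex⟩ := c3Facts_of F hF hF3
  have hP2 : ∀ c ∈ pCore 2 G, ∃ m : ℕ, c ^ (2 ^ m) = 1 := by
    intro c hc
    obtain ⟨m, hm⟩ := Cfsg.Agent.Lib.Helper84.pCore_isPGroup 2 G ⟨c, hc⟩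
    exact ⟨m, by simpa [Subtype.ext_iff] using hm⟩
  have hCP : ∀ g : G, (∀ v ∈ pCore 2 G, g * v = v * g) → g ∈ pCore 2 G := by
    intro g hg
    apply hG
    rw [Subgroup.mem_centralizer_iff]
    intro v hv
    exact (hg v hv).symm
  have hVP : Vb 2 G ≤ pCore 2 G := Cfsg.Agent.Lib.Helper85.BB.omegaOneCenter_le 2 _
  have hVc : ∀ v ∈ Vb 2 G, ∀ c ∈ pCore 2 G, v * c = c * v := by
    intro v hv c hc
    have h := Cfsg.Agent.Lib.Helper85.BB.omegaOneCenter_le_centralizer 2 (pCore 2 G) hv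
    exact ((Subgroup.mem_centralizer_iff.mp h) c hc).symm
  have hVexp : ∀ v ∈ Vb 2 G, v ^ 2 = 1 :=
    Cfsg.Agent.Lib.Helper85.BB.omegaOneCenter_pow 2 (pCore 2 G)
  have hVn : ∀ g : G, ∀ v ∈ Vb 2 G, g * v * g⁻¹ ∈ Vb 2 G := by
    intro g v hv
    have hg : g ∈ Subgroup.normalizer ((pCore 2 G : Subgroup G) : Set G) := by
      rw [Subgroup.normalizer_eq_top_iff.mpr hPnormal]; trivial
    have hg' := Cfsg.Agent.Lib.Helper85.BB.normalizer_le_normalizer_omegaOneCenter 2 (pCore 2 G) hg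
    exact (Subgroup.mem_normalizer_iff.mp hg' v).mp hv
  obtain ⟨S⟩ : Nonempty (Sylow 3 G) := inferInstance
  obtain ⟨x, hxE, hxS, hxQ⟩ := exists_three_elt (pCore 2 G) E (Qb 2 E) hEs hE.QP hE.EP hEf.cube
    hE.OEP hEex S
  obtain ⟨y, hyF, hyS, hyQ⟩ := exists_three_elt (pCore 2 G) F (Qb 2 F) hFs hF.QP hF.EP hFf.cube
    hF.OEP hFex S
  exact c3_core hCQ (pCore 2 G) (Vb 2 G) hPnormal hP2 hCP hVP hVc hVexp hVn S E F (Qb 2 E)
    (Qb 2 F) hEf hFf x y hxE hxS hxQ hyF hyS hyQ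

end Cfsg.Agent.Lib.Helper77.SnB
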